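import Mathlib
import Cfsg.Agent.Lib.Helper56.TC
import Cfsg.Agent.Lib.Helper56.Fi23U7.D
set_option autoImplicit false
set_option maxRecDepth 1000000

namespace Cfsg.Agent.Lib.Helper56.Fi23U7

open Cfsg.Agent.Lib.Helper56.TC Cfsg.Agent.Lib.Helper56.TC.Tabs

theorem cN_0 : allRange (fun x => forceN T.chkName x) 0 587 = true := by decide +kernel
theorem cN_587 : allRange (fun x => forceN T.chkName x) 587 593 = true := by decide +kernel
theorem cN_1180 : allRange (fun x => forceN T.chkName x) 1180 597 = true := by decide +kernel
theorem cN_1777 : allRange (fun x => forceN T.chkName x) 1777 598 = true := by decide +kernel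
theorem cN_2375 : allRange (fun x => forceN T.chkName x) 2375 599 = true := by decide +kernel
theorem cN_2974 : allRange (fun x => forceN T.chkName x) 2974 671 = true := by decide +kernel
theorem cN_3645 : allRange (fun x => forceN T.chkName x) 3645 717 = true := by decide +kernel
theorem cN_4362 : allRange (fun x => forceN T.chkName x) 4362 727 = true := by decide +kernel
theorem cN_5089 : allRange (fun x => forceN T.chkName x) 5089 735 = true := by decide +kernel
theorem cN_5824 : allRange (fun x => forceN T.chkName x) 5824 432 = true := by decide +kernel
theorem cV_0 : allRange (fun x => forceN T.chkV x) 0 465 = true := by decide +kernel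
theorem cV_465 : allRange (fun x => forceN T.chkV x) 465 465 = true := by decide +kernel

end Cfsg.Agent.Lib.Helper56.Fi23U7
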