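import Mathlib
import Cfsg.Agent.Lib.Helper56.TC
import Cfsg.Agent.Lib.Helper56.Fi23U7.D
set_option autoImplicit false
set_option maxRecDepth 1000000

namespace Cfsg.Agent.Lib.Helper56.Fi23U7

open Cfsg.Agent.Lib.Helper56.TC Cfsg.Agent.Lib.Helper56.TC.Tabs

theorem cV_930 : allRange (fun x => forceN T.chkV x) 930 465 = true := by decide +kernel
theorem cV_1395 : allRange (fun x => forceN T.chkV x) 1395 465 = true := by decide +kernel
theorem cV_1860 : allRange (fun x => forceN T.chkV x) 1860 465 = true := by decide +kernel
theorem cV_2325 : allRange (fun x => forceN T.chkV x) 2325 465 = true := by decide +kernel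
theorem cV_2790 : allRange (fun x => forceN T.chkV x) 2790 369 = true := by decide +kernel

end Cfsg.Agent.Lib.Helper56.Fi23U7
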