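import Mathlib
import Cfsg.Agent.Lib.Helper56.TC
import Cfsg.Agent.Lib.Helper56.Fi23U7.C0
import Cfsg.Agent.Lib.Helper56.Fi23U7.C1
set_option autoImplicit false
set_option maxRecDepth 1000000

namespace Cfsg.Agent.Lib.Helper56.Fi23U7

open Cfsg.Agent.Lib.Helper56.TC Cfsg.Agent.Lib.Helper56.TC.Tabs

theorem uN_587 : Upto T.chkName 587 := upto_add (upto_zero T.chkName) rfl cN_0
theorem uN_1180 : Upto T.chkName 1180 := upto_add uN_587 rfl cN_587
theorem uN_1777 : Upto T.chkName 1777 := upto_add uN_1180 rfl cN_1180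
theorem uN_2375 : Upto T.chkName 2375 := upto_add uN_1777 rfl cN_1777
theorem uN_2974 : Upto T.chkName 2974 := upto_add uN_2375 rfl cN_2375
theorem uN_3645 : Upto T.chkName 3645 := upto_add uN_2974 rfl cN_2974
theorem uN_4362 : Upto T.chkName 4362 := upto_add uN_3645 rfl cN_3645
theorem uN_5089 : Upto T.chkName 5089 := upto_add uN_4362 rfl cN_4362
theorem uN_5824 : Upto T.chkName 5824 := upto_add uN_5089 rfl cN_5089
theorem uN_6256 : Upto T.chkName 6256 := upto_add uN_5824 rfl cN_5824
theorem uV_465 : Upto T.chkV 465 := upto_add (upto_zero T.chkV) rfl cV_0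
theorem uV_930 : Upto T.chkV 930 := upto_add uV_465 rfl cV_465
theorem uV_1395 : Upto T.chkV 1395 := upto_add uV_930 rfl cV_930
theorem uV_1860 : Upto T.chkV 1860 := upto_add uV_1395 rfl cV_1395
theorem uV_2325 : Upto T.chkV 2325 := upto_add uV_1860 rfl cV_1860
theorem uV_2790 : Upto T.chkV 2790 := upto_add uV_2325 rfl cV_2325
theorem uV_3159 : Upto T.chkV 3159 := upto_add uV_2790 rfl cV_2790

/-- The certificate is valid. -/
theorem cert : T.Cert where
  h0 := by decide +kernel
  hrx := by decide +kernel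
  hs0 := by decide +kernel
  hname := uN_6256
  hV := uV_3159

theorem orep_0 : T.orep 0 < T.N ∧ T.ol (T.orep 0) = 0 := by decide +kernel
theorem cnt_0 : countLt (fun v => Nat.beq (T.ol v) 0) T.N = 1 := by decide +kernel
theorem orep_1 : T.orep 1 < T.N ∧ T.ol (T.orep 1) = 1 := by decide +kernel
theorem cnt_1 : countLt (fun v => Nat.beq (T.ol v) 1) T.N = 288 := by decide +kernel
theorem orep_2 : T.orep 2 < T.N ∧ T.ol (T.orep 2) = 2 := by decide +kernel
theorem cnt_2 : countLt (fun v => Nat.beq (T.ol v) 2) T.N = 630 := by decide +kernel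
theorem orep_3 : T.orep 3 < T.N ∧ T.ol (T.orep 3) = 3 := by decide +kernel
theorem cnt_3 : countLt (fun v => Nat.beq (T.ol v) 3) T.N = 2240 := by decide +kernel

end Cfsg.Agent.Lib.Helper56.Fi23U7
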